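import Mathlib
import Cfsg.Agent.Lib.Helper4.TIQ.Defs

/-!
# Project TIQ (S4151), package [CLEQ]

`O ∩ N_G(H) ≤ Q` when `N_G(H) = Q H` and `|O|` is coprime to `|H|`.
-/

set_option autoImplicit false

namespace Cfsg.Agent.Lib.Helper25.TIQ

open Cfsg.Agent.Lib.Helper4.TIQ

universe u

/-- elements of `Q ⊔ H` are products `q * h` when `Q` normalizes `H`. -/
theorem exists_mul_of_mem_sup {G : Type u} [Group G] {H Q : Subgroup G}
    (hQN : Q ≤ Subgroup.normalizer (H : Set G)) :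
    ∀ x ∈ Q ⊔ H, ∃ q ∈ Q, ∃ h ∈ H, x = q * h := by
  intro x hx
  rw [Subgroup.sup_eq_closure] at hx
  induction hx using Subgroup.closure_induction with
  | mem x hx =>
    rcases hx with hx | hx
    · exact ⟨x, hx, 1, H.one_mem, by simp⟩
    · exact ⟨1, Q.one_mem, x, hx, by simp⟩
  | one => exact ⟨1, Q.one_mem, 1, H.one_mem, by simp⟩
  | mul x y _ _ hx hy =>
    obtain ⟨q1, hq1, h1, hh1, rfl⟩ := hx
    obtain ⟨q2, hq2, h2, hh2, rfl⟩ := hy
    refine ⟨q1 * q2, Q.mul_mem hq1 hq2, q2⁻¹ * h1 * q2 * h2, H.mul_mem ?_ hh2, by group⟩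
    exact (Subgroup.mem_normalizer_iff''.mp (hQN hq2) h1).mp hh1
  | inv x _ hx =>
    obtain ⟨q, hq, h, hh, rfl⟩ := hx
    refine ⟨q⁻¹, Q.inv_mem hq, q * h⁻¹ * q⁻¹, ?_, by group⟩
    exact (Subgroup.mem_normalizer_iff.mp (hQN hq) h⁻¹).mp (H.inv_mem hh)

theorem pkgCLeQ : PkgCLeQ.{u} := by
  intro G _ _ H Q O hOn hcop hQN hQH
  rintro c ⟨hcO, hcN⟩
  have hOH : O ⊓ H = ⊥ := (Subgroup.disjoint_of_coprime_natCard hcop).eq_bot
  have hcomm : ∀ h ∈ H, c * h = h * c := by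
    intro h hh
    have h1 : c * h * c⁻¹ ∈ H := (Subgroup.mem_normalizer_iff.mp hcN h).mp hh
    have h2 : c * h * c⁻¹ * h⁻¹ ∈ H := H.mul_mem h1 (H.inv_mem hh)
    have h3 : c * h * c⁻¹ * h⁻¹ ∈ O := by
      have : c * (h * c⁻¹ * h⁻¹) ∈ O := O.mul_mem hcO (hOn.conj_mem _ (O.inv_mem hcO) _)
      simpa [mul_assoc] using this
    have h5 : c * h * c⁻¹ * h⁻¹ = 1 := by
      have h6 : c * h * c⁻¹ * h⁻¹ ∈ O ⊓ H := ⟨h3, h2⟩
      rw [hOH] at h6
      exact Subgroup.mem_bot.mp h6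
    have h7 : c * h * c⁻¹ = h := by simpa using congrArg (· * h) h5
    simpa using congrArg (· * c) h7
  have hcN' : c ∈ Q ⊔ H := by rw [hQH]; exact hcN
  obtain ⟨q, hq, h, hh, hc⟩ := exists_mul_of_mem_sup hQN c hcN'
  have hqc : q = c * h⁻¹ := by rw [hc]; group
  have hch : Commute c h⁻¹ := (show Commute c h from hcomm h hh).inv_right
  have hhm : h ^ Nat.card H = 1 := by
    have h1 : (⟨h, hh⟩ : H) ^ Nat.card H = 1 := pow_card_eq_one'
    have h2 : ((⟨h, hh⟩ : H) ^ Nat.card H : H).1 = 1 := by rw [h1]; rfl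
    rwa [Subgroup.coe_pow] at h2
  have hqm : q ^ Nat.card H = c ^ Nat.card H := by
    rw [hqc, hch.mul_pow, inv_pow, hhm, inv_one, mul_one]
  have hcm : c ^ Nat.card H ∈ Q := by
    rw [← hqm]
    exact Q.pow_mem hq _
  have hord : (orderOf c).Coprime (Nat.card H) := by
    have h1 : orderOf c ∣ Nat.card O := by
      have h2 := orderOf_dvd_natCard (⟨c, hcO⟩ : O)
      rwa [Subgroup.orderOf_mk] at h2
    exact Nat.Coprime.coprime_dvd_left h1 hcop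
  obtain ⟨k, hk⟩ := exists_pow_eq_self_of_coprime hord.symm
  rw [← hk]
  exact Q.pow_mem hcm k

end Cfsg.Agent.Lib.Helper25.TIQ
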